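import Mathlib
import Cfsg.Agent.Lib.Helper65.S4415.ExtDefs

/-!
# S4415 (helper78), [EXT] sub-packages (helper65): shared tools for the quaternion model

`LR ρ φ g α γ` says that `g` acts on the model as `h ↦ α * h * γ`.
-/

set_option autoImplicit false

namespace Cfsg.Agent.Lib.Helper61.S4415

open Cfsg.Agent.Lib.Helper78.S4415 Cfsg.Agent.Lib.Helper65.S4415

universe u v

/-- decidable equality on the 81 quaternions over `F_3` -/
instance decEqH : DecidableEq H := fun a b =>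
  decidable_of_iff (a.re = b.re ∧ a.imI = b.imI ∧ a.imJ = b.imJ ∧ a.imK = b.imK)
    ⟨fun h => Quaternion.ext a b h.1 h.2.1 h.2.2.1 h.2.2.2,
      fun h => by subst h; exact ⟨rfl, rfl, rfl, rfl⟩⟩

section

variable {G : Type u} [Group G] {V : Type v} [AddCommGroup V] [Module (ZMod 3) V]
  {ρ : Representation (ZMod 3) G V} {φ : V ≃ₗ[ZMod 3] H}

theorem rho_mul (ρ : Representation (ZMod 3) G V) (g h : G) (v : V) :
    ρ (g * h) v = ρ g (ρ h v) := by
  rw [map_mul]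
  rfl

theorem rho_one (ρ : Representation (ZMod 3) G V) (v : V) : ρ 1 v = v := by
  rw [map_one]
  rfl

/-- (T1) -/
theorem lr_mul {g g' : G} {α γ α' γ' : H} (h : LR ρ φ g α γ) (h' : LR ρ φ g' α' γ') :
    LR ρ φ (g * g') (α * α') (γ' * γ) := by
  intro v
  rw [rho_mul, h (ρ g' v), h' v]
  simp only [mul_assoc]

theorem lr_congr {g : G} {α γ α' γ' : H} (h : LR ρ φ g α γ) (hα : α = α') (hγ : γ = γ') :
    LR ρ φ g α' γ' := by
  subst hα
  subst hγ
  exact h

theorem lr_mul1 {g g' : G} {α α' : H} (h : LR ρ φ g α 1) (h' : LR ρ φ g' α' 1) :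
    LR ρ φ (g * g') (α * α') 1 :=
  lr_congr (lr_mul h h') rfl (mul_one 1)

theorem lr_one : LR ρ φ 1 1 1 := by
  intro v
  rw [rho_one, one_mul, mul_one]

theorem lr_neg {z : G} (hz : ∀ v : V, ρ z v = -v) : LR ρ φ z (-1) 1 := by
  intro v
  rw [hz, map_neg, mul_one, neg_one_mul]

theorem lr_left {x : G} {q : H} (hx : ∀ v : V, φ (ρ x v) = q * φ v) : LR ρ φ x q 1 := by
  intro v
  rw [hx, mul_one]

/-- two `LR`-forms of the same element give the same map -/
theorem lr_eq {g : G} {α γ α' γ' : H} (h : LR ρ φ g α γ) (h' : LR ρ φ g α' γ') (t : H) :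
    α * t * γ = α' * t * γ' := by
  have h1 := h (φ.symm t)
  have h2 := h' (φ.symm t)
  rw [LinearEquiv.apply_symm_apply] at h1 h2
  rw [← h1, ← h2]

/-- cancellation of a right unit -/
theorem cancel_right_unit {γ γ' a c : H} (h : γ * γ' = 1) (hac : a * γ = c * γ) : a = c := by
  calc a = a * (γ * γ') := by rw [h, mul_one]
    _ = a * γ * γ' := by rw [mul_assoc]
    _ = c * γ * γ' := by rw [hac]
    _ = c * (γ * γ') := by rw [mul_assoc]
    _ = c := by rw [h, mul_one]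

/-- (T3) the wrapper for `PkgXNorm`: if `g x g⁻¹` and `g y g⁻¹` act as left multiplications by
elements of `Q8`, then `g` acts as `h ↦ α h γ` with units `α, γ`. -/
theorem lr_of_norm (hNorm : PkgXNorm) {x y : G} (mx : ∀ v : V, φ (ρ x v) = qi * φ v)
    (my : ∀ v : V, φ (ρ y v) = qj * φ v) (g c d : G) (p p' : H) (hp : Q8 p) (hp' : Q8 p')
    (hcx : g * x = c * g) (hdy : g * y = d * g) (hc : LR ρ φ c p 1) (hd : LR ρ φ d p' 1) :
    ∃ α γ : H, Quaternion.normSq α ≠ 0 ∧ Quaternion.normSq γ ≠ 0 ∧ LR ρ φ g α γ := by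
  have hsx : ∀ h : H, φ.symm (qi * h) = ρ x (φ.symm h) := by
    intro h
    apply φ.injective
    rw [LinearEquiv.apply_symm_apply, mx, LinearEquiv.apply_symm_apply]
  have hsy : ∀ h : H, φ.symm (qj * h) = ρ y (φ.symm h) := by
    intro h
    apply φ.injective
    rw [LinearEquiv.apply_symm_apply, my, LinearEquiv.apply_symm_apply]
  have h1 : ∀ h : H, (φ.toLinearMap ∘ₗ (ρ g) ∘ₗ φ.symm.toLinearMap)
      ((φ.toLinearMap ∘ₗ (ρ g⁻¹) ∘ₗ φ.symm.toLinearMap) h) = h := by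
    intro h
    simp only [LinearMap.comp_apply, LinearEquiv.coe_coe, LinearEquiv.symm_apply_apply]
    rw [← rho_mul, mul_inv_cancel, rho_one, LinearEquiv.apply_symm_apply]
  have h2 : ∀ h : H, (φ.toLinearMap ∘ₗ (ρ g⁻¹) ∘ₗ φ.symm.toLinearMap)
      ((φ.toLinearMap ∘ₗ (ρ g) ∘ₗ φ.symm.toLinearMap) h) = h := by
    intro h
    simp only [LinearMap.comp_apply, LinearEquiv.coe_coe, LinearEquiv.symm_apply_apply]
    rw [← rho_mul, inv_mul_cancel, rho_one, LinearEquiv.apply_symm_apply]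
  have h3 : ∀ h : H, (φ.toLinearMap ∘ₗ (ρ g) ∘ₗ φ.symm.toLinearMap) (qi * h) =
      p * (φ.toLinearMap ∘ₗ (ρ g) ∘ₗ φ.symm.toLinearMap) h := by
    intro h
    simp only [LinearMap.comp_apply, LinearEquiv.coe_coe]
    rw [hsx, ← rho_mul, hcx, rho_mul, hc, mul_one]
  have h4 : ∀ h : H, (φ.toLinearMap ∘ₗ (ρ g) ∘ₗ φ.symm.toLinearMap) (qj * h) =
      p' * (φ.toLinearMap ∘ₗ (ρ g) ∘ₗ φ.symm.toLinearMap) h := by
    intro h
    simp only [LinearMap.comp_apply, LinearEquiv.coe_coe]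
    rw [hsy, ← rho_mul, hdy, rho_mul, hd, mul_one]
  obtain ⟨α, γ, hα, hγ, hT⟩ := hNorm _ _ p p' h1 h2 hp hp' h3 h4
  refine ⟨α, γ, hα, hγ, fun v => ?_⟩
  have h5 := hT (φ v)
  simp only [LinearMap.comp_apply, LinearEquiv.coe_coe, LinearEquiv.symm_apply_apply] at h5
  exact h5

/-- with `β₁³ = 1` and `β₂ = 1` the element `b` would act quadratically -/
theorem beta2_ne_one (hFin : FinFacts) {b : G} (hJ : Jordan ρ b) {β1 β2 : H}
    (hb : LR ρ φ b β1 β2) (h1 : β1 * β1 * β1 = 1) : β2 ≠ 1 := by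
  rintro rfl
  obtain ⟨v, hv, -⟩ := hJ
  apply hv
  apply φ.injective
  have hsq := hFin.cube β1 h1
  have e1 : ∀ w : V, φ (ρ b w) = β1 * φ w := fun w => by rw [hb w, mul_one]
  have e2 : φ (ρ b (ρ b v - v) - (ρ b v - v)) = (β1 - 1) * (β1 - 1) * φ v := by
    rw [map_sub φ, e1, map_sub φ, e1]
    noncomm_ring
  rw [e2, hsq, zero_mul, map_zero]

end

end Cfsg.Agent.Lib.Helper61.S4415
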