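import Mathlib
import Cfsg.Agent.Lib.Helper48.S4415.RedDefs

/-!
# S4415 (helper78), [RED] sub-package [R-SETUPG] (helper48)

The group-theoretic fields of `Setup` inside `H = R ⊔ ⟨b⟩`.
-/

set_option autoImplicit false

namespace Cfsg.Agent.Lib.Helper61.S4415

open Cfsg.Agent.Lib.Helper48.S4415 Cfsg.Agent.Lib.Helper78.S4415

universe u

/-- [R-SETUPG] -/
theorem pkgSetupG : PkgSetupG.{u} := by
  intro S _ _ _ R b Q hbH hnorm hcop hb3 hcomm hQR hQ4 hQ2 hQn hQm
  have hRH : R ≤ R ⊔ Subgroup.zpowers b := le_sup_left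
  have hQH : Q ≤ R ⊔ Subgroup.zpowers b := hQR.trans hRH
  refine ⟨?_, ?_, inferInstance, ?_, ?_, ?_, ?_, ?_, ?_, ?_, ?_⟩
  · constructor
    intro n hn g
    rw [Subgroup.mem_subgroupOf] at hn ⊢
    exact hnorm g.1 g.2 n.1 hn
  · rw [Nat.card_congr (Subgroup.subgroupOfEquivOfLe hRH).toEquiv]
    exact hcop
  · apply Subtype.ext
    rw [Subgroup.coe_pow]
    exact hb3
  · apply Subgroup.map_injective (R ⊔ Subgroup.zpowers b).subtype_injective
    rw [Subgroup.map_sup, Subgroup.map_subgroupOf_eq_of_le hRH, MonoidHom.map_zpowers,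
      ← MonoidHom.range_eq_map, Subgroup.range_subtype]
    rfl
  · apply Subgroup.map_injective (R ⊔ Subgroup.zpowers b).subtype_injective
    rw [Subgroup.map_commutator, Subgroup.map_subgroupOf_eq_of_le hRH, MonoidHom.map_zpowers]
    exact hcomm
  · intro q hq
    rw [Subgroup.mem_subgroupOf] at hq ⊢
    exact hQR hq
  · rw [Nat.card_congr (Subgroup.subgroupOfEquivOfLe hQH).toEquiv]
    exact hQ4
  · intro q hq
    rw [Subgroup.mem_subgroupOf] at hq
    apply Subtype.ext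
    exact hQ2 q.1 hq
  · intro q hq
    rw [Subgroup.mem_subgroupOf] at hq ⊢
    exact hQn q.1 hq
  · obtain ⟨q, hq, hne⟩ := hQm
    refine ⟨⟨q, hQH hq⟩, Subgroup.mem_subgroupOf.mpr hq, ?_⟩
    intro h
    exact hne (congrArg Subtype.val h)

end Cfsg.Agent.Lib.Helper61.S4415
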