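import Mathlib
import Cfsg.Agent.Lib.Helper48.S4415.RedDefs

/-!
# S4415 (helper78), [RED] sub-package [R-SETUPM] (helper48)

The module fields of `Setup` for the restricted representation.
-/

set_option autoImplicit false

namespace Cfsg.Agent.Lib.Helper61.S4415

open Cfsg.Agent.Lib.Helper48.S4415 Cfsg.Agent.Lib.Helper78.S4415

universe u v

/-- [R-SETUPM] -/
theorem pkgSetupM : PkgSetupM.{u, v} := by
  intro S _ _ E _ _ _ ρ H F F' b hbH hF hfaith hirr hsup hfix hJ
  refine ⟨?_, ?_, ?_⟩
  · rw [injective_iff_map_eq_one]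
    intro g hg
    apply Subtype.ext
    apply hfaith g.1 g.2
    intro v hv
    have h1 := congrArg (fun f : ↥F →ₗ[ZMod 3] ↥F => ((f ⟨v, hv⟩ : ↥F) : E)) hg
    exact h1
  · intro N hN
    have hNF : N.map F.subtype ≤ F := by
      rintro x ⟨w, -, rfl⟩
      exact w.2
    have hinv : ∀ r ∈ H, ∀ v ∈ N.map F.subtype, ρ r v ∈ N.map F.subtype := by
      rintro r hr x ⟨w, hw, rfl⟩
      exact ⟨resRep ρ H F hF ⟨r, hr⟩ w, hN ⟨r, hr⟩ w hw, rfl⟩
    rcases hirr (N.map F.subtype) hNF hinv with h | h
    · left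
      apply Submodule.map_injective_of_injective F.injective_subtype
      rw [h, Submodule.map_bot]
    · right
      apply Submodule.map_injective_of_injective F.injective_subtype
      rw [h, Submodule.map_subtype_top]
  · obtain ⟨v, hv2, hv⟩ := hJ
    have hvmem : v ∈ F ⊔ F' := by
      rw [hsup]
      exact Submodule.mem_top
    obtain ⟨v0, hv0, v1, hv1, hsum⟩ := Submodule.mem_sup.mp hvmem
    have hN : ρ b v - v = ρ b v0 - v0 := by
      rw [← hsum, map_add, hfix v1 hv1]
      abel
    rw [hN] at hv2 hv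
    refine ⟨⟨v0, hv0⟩, ?_, ?_⟩
    · intro h
      apply hv2
      exact congrArg Subtype.val h
    · intro x
      obtain ⟨a, c, hac⟩ := hv x.1
      refine ⟨a, c, ?_⟩
      apply Subtype.ext
      exact hac

end Cfsg.Agent.Lib.Helper61.S4415
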