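import Mathlib
import Cfsg.Agent.Lib.Helper65.S4415.ExtDefs
import Cfsg.Agent.Lib.Helper61.S4415.XTools

/-!
# S4415 (helper78), [EXT] sub-package [X-B] (helper65)

`b` acts on the quaternion model as `h ↦ β₁ h β₂` with `β₁³ = β₂³ = 1`, `β₂ ≠ 1`.
-/

set_option autoImplicit false

namespace Cfsg.Agent.Lib.Helper61.S4415

open Cfsg.Agent.Lib.Helper78.S4415 Cfsg.Agent.Lib.Helper65.S4415

universe u v

/-- [X-B] -/
theorem pkgXB : PkgXB.{u, v} := by
  intro hNorm hFin G _ _ V _ _ _ ρ R b Q N z x y φ hC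
  have hz : ∀ v : V, ρ z v = -v := hC.extra.2.2.1
  have lx : LR ρ φ x qi 1 := lr_left hC.mx
  have ly : LR ρ φ y qj 1 := lr_left hC.my
  have lz : LR ρ φ z (-1) 1 := lr_neg hz
  have hbx : b * x = y * b := mul_inv_eq_iff_eq_mul.mp hC.bx
  obtain ⟨d, p', hp', hdy, hd⟩ : ∃ (d : G) (p' : H), Q8 p' ∧ b * y = d * b ∧ LR ρ φ d p' 1 := by
    rcases hC.bY with h | h
    · exact ⟨x * y, qi * qj, by unfold Q8; decide, mul_inv_eq_iff_eq_mul.mp h, lr_mul1 lx ly⟩
    · exact ⟨z * x * y, -1 * qi * qj, by unfold Q8; decide, mul_inv_eq_iff_eq_mul.mp h,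
        lr_mul1 (lr_mul1 lz lx) ly⟩
  obtain ⟨β1, β2, hn1, hn2, hb⟩ := lr_of_norm hNorm hC.mx hC.my b y d qj p'
    (by unfold Q8; decide) hp' hbx hdy ly hd
  have hb3 : b * b * b = 1 := by
    have h := hC.setup.b3
    rw [pow_succ, pow_two] at h
    exact h
  have h3 : LR ρ φ (b * b * b) (β1 * β1 * β1) (β2 * (β2 * β2)) := lr_mul (lr_mul hb hb) hb
  rw [hb3] at h3
  obtain ⟨A, hA⟩ : ∃ A : H, A = β1 * β1 * β1 := ⟨_, rfl⟩
  obtain ⟨B, hB⟩ : ∃ B : H, B = β2 * β2 * β2 := ⟨_, rfl⟩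
  have hAB' : ∀ t : H, t = A * t * B := by
    intro t
    have h := lr_eq (lr_one (ρ := ρ) (φ := φ)) h3 t
    rw [one_mul, mul_one] at h
    rw [hA, hB, mul_assoc β2 β2 β2]
    exact h
  have hAB1 : A * B = 1 := by
    have h := hAB' 1
    rw [mul_one] at h
    exact h.symm
  have hnA : Quaternion.normSq A ≠ 0 := by
    rw [hA, map_mul, map_mul]
    exact mul_ne_zero (mul_ne_zero hn1 hn1) hn1
  obtain ⟨A', hA1, hA2⟩ := hFin.unit A hnA
  have hBA : B * A = 1 := by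
    have h : B = A' := by
      calc B = (A' * A) * B := by rw [hA2, one_mul]
        _ = A' * (A * B) := by rw [mul_assoc]
        _ = A' := by rw [hAB1, mul_one]
    rw [h, hA2]
  have hcen : ∀ t : H, A * t = t * A := by
    intro t
    calc A * t = A * t * (B * A) := by rw [hBA, mul_one]
      _ = (A * t * B) * A := by simp only [mul_assoc]
      _ = t * A := by rw [← hAB' t]
  rcases hFin.center A hcen with h0 | h1 | h1
  · exfalso
    rw [h0, zero_mul] at hAB1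
    exact (by decide : (0 : H) ≠ 1) hAB1
  · have hB1 : B = 1 := by
      rw [h1, one_mul] at hAB1
      exact hAB1
    have hc1 : β1 * β1 * β1 = 1 := by rw [← hA, h1]
    exact ⟨β1, β2, hb, hc1, by rw [← hB, hB1], beta2_ne_one hFin hC.setup.jordan hb hc1⟩
  · have hB1 : B = -1 := by
      rw [h1, neg_one_mul] at hAB1
      exact neg_eq_iff_eq_neg.mp hAB1
    have hb' : LR ρ φ b (-β1) (-β2) := by
      intro v
      rw [hb v]
      simp
    have hc1 : -β1 * -β1 * -β1 = 1 := by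
      have h : -β1 * -β1 * -β1 = -(β1 * β1 * β1) := by noncomm_ring
      rw [h, ← hA, h1, neg_neg]
    have hc2 : -β2 * -β2 * -β2 = 1 := by
      have h : -β2 * -β2 * -β2 = -(β2 * β2 * β2) := by noncomm_ring
      rw [h, ← hB, hB1, neg_neg]
    exact ⟨-β1, -β2, hb', hc1, hc2, beta2_ne_one hFin hC.setup.jordan hb' hc1⟩

end Cfsg.Agent.Lib.Helper61.S4415
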