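import Mathlib
import Cfsg.Agent.Lib.Helper65.S4415.ExtDefs
import Cfsg.Agent.Lib.Helper61.S4415.XTools

/-!
# S4415 (helper78), [EXT] sub-package [X-N] (helper65)

The elements of `N` act on the quaternion model as `h ↦ p h γ` with `p, γ ∈ Q8`.
-/

set_option autoImplicit false

namespace Cfsg.Agent.Lib.Helper61.S4415

open Cfsg.Agent.Lib.Helper78.S4415 Cfsg.Agent.Lib.Helper65.S4415

universe u v

/-- [X-N] -/
theorem pkgXN : PkgXN.{u, v} := by
  intro hNorm hFin G _ _ V _ _ _ ρ R b Q N z x y φ hC hBF n hn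
  obtain ⟨hzN, hz1, hz, hsq, hcomm, hcen, -⟩ := hC.extra
  have lx : LR ρ φ x qi 1 := lr_left hC.mx
  have ly : LR ρ φ y qj 1 := lr_left hC.my
  have lz : LR ρ φ z (-1) 1 := lr_neg hz
  obtain ⟨c, p, hp, hcx, hc, hcq⟩ : ∃ (c : G) (p : H), Q8 p ∧ n * x = c * n ∧ LR ρ φ c p 1 ∧
      (p = qi ∨ p = -qi) := by
    rcases hcomm n hn x hC.xN with h | h
    · exact ⟨x, qi, by unfold Q8; decide, h, lx, Or.inl rfl⟩
    · exact ⟨z * x, -1 * qi, by unfold Q8; decide, h, lr_mul1 lz lx, Or.inr (neg_one_mul _)⟩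
  obtain ⟨d, p', hp', hdy, hd, hdq⟩ : ∃ (d : G) (p' : H), Q8 p' ∧ n * y = d * n ∧
      LR ρ φ d p' 1 ∧ (p' = qj ∨ p' = -qj) := by
    rcases hcomm n hn y hC.yN with h | h
    · exact ⟨y, qj, by unfold Q8; decide, h, ly, Or.inl rfl⟩
    · exact ⟨z * y, -1 * qj, by unfold Q8; decide, h, lr_mul1 lz ly, Or.inr (neg_one_mul _)⟩
  obtain ⟨α, γ, hnα, hnγ, hL⟩ := lr_of_norm hNorm hC.mx hC.my n c d p p' hp hp' hcx hdy hc hd
  obtain ⟨γ', hγ1, hγ2⟩ := hFin.unit γ hnγ
  have hαi : α * qi = qi * α ∨ α * qi = -(qi * α) := by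
    have hL2 : LR ρ φ (n * x) (p * α) (γ * 1) := by
      rw [hcx]
      exact lr_mul hc hL
    have h1 := lr_eq (lr_mul hL lx) hL2 1
    rw [mul_one, mul_one, one_mul, mul_one] at h1
    have h2 : α * qi = p * α := cancel_right_unit hγ1 h1
    rcases hcq with rfl | rfl
    · left
      exact h2
    · right
      rw [h2, neg_mul]
  have hαj : α * qj = qj * α ∨ α * qj = -(qj * α) := by
    have hL2 : LR ρ φ (n * y) (p' * α) (γ * 1) := by
      rw [hdy]
      exact lr_mul hd hL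
    have h1 := lr_eq (lr_mul hL ly) hL2 1
    rw [mul_one, mul_one, one_mul, mul_one] at h1
    have h2 : α * qj = p' * α := cancel_right_unit hγ1 h1
    rcases hdq with rfl | rfl
    · left
      exact h2
    · right
      rw [h2, neg_mul]
  have hQα : Q8 α := hFin.q8_of_comm α hnα hαi hαj
  obtain ⟨e, q, heN, hq, hqα, he⟩ : ∃ (e : G) (q : H), e ∈ N ∧ Q8 q ∧ q * α = 1 ∧
      LR ρ φ e q 1 := by
    rcases hQα with rfl | rfl | rfl | rfl | rfl | rfl | rfl | rfl
    · exact ⟨1, 1, N.one_mem, by unfold Q8; decide, by decide, lr_one⟩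
    · exact ⟨z, -1, hzN, by unfold Q8; decide, by decide, lz⟩
    · exact ⟨z * x, -1 * qi, N.mul_mem hzN hC.xN, by unfold Q8; decide, by decide,
        lr_mul1 lz lx⟩
    · exact ⟨x, qi, hC.xN, by unfold Q8; decide, by decide, lx⟩
    · exact ⟨z * y, -1 * qj, N.mul_mem hzN hC.yN, by unfold Q8; decide, by decide,
        lr_mul1 lz ly⟩
    · exact ⟨y, qj, hC.yN, by unfold Q8; decide, by decide, ly⟩
    · exact ⟨z * (x * y), -1 * (qi * qj), N.mul_mem hzN (N.mul_mem hC.xN hC.yN),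
        by unfold Q8; decide, by decide, lr_mul1 lz (lr_mul1 lx ly)⟩
    · exact ⟨x * y, qi * qj, N.mul_mem hC.xN hC.yN, by unfold Q8; decide, by decide,
        lr_mul1 lx ly⟩
  have hn' : e * n ∈ N := N.mul_mem heN hn
  have hL' : LR ρ φ (e * n) 1 γ := lr_congr (lr_mul he hL) hqα (mul_one γ)
  have hγsq : γ * γ = 1 ∨ γ * γ = -1 := by
    have h2 := lr_mul hL' hL'
    rcases hsq (e * n) hn' with h | h
    · left
      rw [h] at h2
      have h3 := lr_eq h2 (lr_one (ρ := ρ) (φ := φ)) 1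
      simpa using h3
    · right
      rw [h] at h2
      have h3 := lr_eq h2 lz 1
      simpa using h3
  have hQγ : Q8 γ := by
    rcases hγsq with h | h
    · by_cases h1 : γ = 1
      · left
        exact h1
      by_cases h2 : γ = -1
      · right
        left
        exact h2
      exfalso
      obtain ⟨β1, β2, hb, hβ1, hβ2, hβ2ne⟩ := hBF
      have hbinv : b⁻¹ = b * b := by
        apply inv_eq_of_mul_eq_one_right
        have h3 := hC.setup.b3
        rw [pow_succ, pow_two] at h3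
        rw [← mul_assoc]
        exact h3
      have hm : b * (e * n) * b⁻¹ ∈ N := hC.Nnormal.conj_mem _ hn' b
      have hLm : LR ρ φ (b * (e * n) * b⁻¹) 1 (β2 * β2 * (γ * β2)) := by
        rw [hbinv]
        refine lr_congr (lr_mul (lr_mul hb hL') (lr_mul hb hb)) ?_ rfl
        rw [mul_one, ← mul_assoc]
        exact hβ1
      have hLnm := lr_mul hL' hLm
      have hnm : e * n * (b * (e * n) * b⁻¹) ∈ N := N.mul_mem hn' hm
      have hX : β2 * β2 * (γ * β2) * γ = β2 * β2 * γ * β2 * γ := by simp only [mul_assoc]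
      have hmix := hFin.mix₁ γ β2 h h1 h2 hβ2 hβ2ne
      have h4 := lr_mul hLnm hLnm
      rcases hsq _ hnm with h5 | h5
      · rw [h5] at h4
        have h6 := lr_eq h4 (lr_one (ρ := ρ) (φ := φ)) 1
        apply hmix.1
        rw [← hX]
        simpa using h6
      · rw [h5] at h4
        have h6 := lr_eq h4 lz 1
        apply hmix.2
        rw [← hX]
        simpa using h6
    · rcases hFin.sq_neg_one γ h with h1 | h1 | h1 | h1 | h1 | h1 <;> rw [h1] <;> unfold Q8 <;>
        decide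
  exact ⟨α, γ, hQα, hQγ, hL⟩

end Cfsg.Agent.Lib.Helper61.S4415
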